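import Cfsg.Agent.PermGroups.Sylvester.Chain

/-!
The theorem of Sylvester and Schur: for `1 ≤ k` and `2k ≤ n`, the binomial coefficient `C(n, k)` has a prime
factor larger than `k`.
-/

set_option autoImplicit false

namespace Cfsg.Agent.PermGroups.Sylvester

open Finset

/-- A prime above `k` dividing one of `n, n-1, …, n-k+1` divides the binomial coefficient. -/
theorem dvd_choose_of_dvd_sub {n k i q : ℕ} (hq : q.Prime) (hkq : k < q) (hi : i < k) (hd : q ∣ n - i) :
    q ∣ n.choose k := by
  have h1 : q ∣ n.descFactorial k := by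
    rw [Nat.descFactorial_eq_prod_range]
    exact hd.trans (Finset.dvd_prod_of_mem _ (Finset.mem_range.2 hi))
  rw [Nat.descFactorial_eq_factorial_mul_choose] at h1
  exact (hq.dvd_mul.1 h1).resolve_left fun h => absurd (hq.dvd_factorial.1 h) (not_le.2 hkq)

/-- The small cases. -/
def smallB (k : ℕ) : Bool :=
  (List.range (max (k * k) 94 + 1)).all fun n => decide (n < 2 * k) ||
    (List.range k).any fun i => decide ((k.factorial) ^ 20 % (n - i) ≠ 0) && decide (n - i < 2 ^ 20)

theorem small_all : ((List.range 34).all fun k => decide (k = 0) || smallB k) = true := by decide +kernel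

/-- A number not dividing a high power of `k!` has a prime factor above `k`. -/
theorem exists_prime_gt {m k : ℕ} (hm : m < 2 ^ 20) (h : k.factorial ^ 20 % m ≠ 0) :
    ∃ q, q.Prime ∧ k < q ∧ q ∣ m := by
  by_contra hno
  push Not at hno
  apply h
  rcases Nat.eq_zero_or_pos m with rfl | hpos
  · exfalso
    obtain ⟨q, hq1, hq2⟩ := Nat.exists_infinite_primes (k + 1)
    exact hno q hq2 (by omega) (dvd_zero q)
  refine Nat.mod_eq_zero_of_dvd ((Nat.factorization_le_iff_dvd hpos.ne'
    (pow_ne_zero _ k.factorial_ne_zero)).1 fun q => ?_)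
  by_cases hq : q.Prime
  · by_cases hd : q ∣ m
    · have hqk : q ≤ k := not_lt.1 fun h' => hno q hq h' hd
      have h1 : m.factorization q ≤ 20 := by
        by_contra hgt
        have h2 := Nat.le_of_dvd hpos (Nat.ordProj_dvd m q)
        have h3 : 2 ^ 20 ≤ q ^ m.factorization q :=
          (Nat.pow_le_pow_left hq.two_le 20).trans (Nat.pow_le_pow_right hq.pos (by omega))
        omega
      have h2 : 1 ≤ k.factorial.factorization q :=
        hq.factorization_pos_of_dvd k.factorial_ne_zero (hq.dvd_factorial.2 hqk)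
      rw [Nat.factorization_pow]
      simp only [Finsupp.coe_smul, Pi.smul_apply, smul_eq_mul]
      omega
    · simp [Nat.factorization_eq_zero_of_not_dvd hd]
  · simp [Nat.factorization_eq_zero_of_not_prime m hq]

theorem small {n k : ℕ} (hk : 1 ≤ k) (hk34 : k < 34) (hn : 2 * k ≤ n) (hn' : n ≤ max (k * k) 94) :
    ∃ q, q.Prime ∧ k < q ∧ q ∣ n.choose k := by
  have h := small_all
  simp only [List.all_eq_true, List.mem_range, Bool.or_eq_true, decide_eq_true_eq] at h
  have h' := (h k hk34).resolve_left (by omega)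
  simp only [smallB, List.all_eq_true, List.mem_range, Bool.or_eq_true, decide_eq_true_eq, List.any_eq_true,
    Bool.and_eq_true] at h'
  obtain ⟨i, hi, hne, hlt⟩ := (h' n (by omega)).resolve_left (by omega)
  obtain ⟨q, hq, hkq, hd⟩ := exists_prime_gt hlt hne
  exact ⟨q, hq, hkq, dvd_choose_of_dvd_sub hq hkq hi hd⟩

/-- The medium cases. -/
theorem medium {n k : ℕ} (hk : 34 ≤ k) (hn : 2 * k ≤ n) (hn' : n ≤ 262144) (h52 : k < 52 → n ≤ 2704)
    (h150 : k < 150 → n ≤ 22500) : ∃ q, q.Prime ∧ k < q ∧ q ∣ n.choose k := by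
  obtain ⟨p, hp, hpn, hnp⟩ := exists_prime_gap n (by omega) hn'
  have hg : gap p ≤ k := by
    unfold gap
    split_ifs <;> omega
  refine ⟨p, hp, by omega, dvd_choose_of_dvd_sub hp (by omega) (i := n - p) (by omega) ?_⟩
  rw [Nat.sub_sub_self hpn]

theorem pow_le_pow_mul_choose : ∀ (n k : ℕ), k ≤ n → n ^ k ≤ k ^ k * n.choose k := by
  intro n
  induction n with
  | zero => intro k hk; simp [Nat.le_zero.1 hk]
  | succ n ih =>
    intro k hk
    cases k with
    | zero => simp
    | succ k =>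
      rcases Nat.eq_zero_or_pos k with rfl | hk0
      · simp
      have h1 : (n + 1) * n.choose k = (n + 1).choose (k + 1) * (k + 1) := Nat.add_one_mul_choose_eq n k
      have h2 : (n + 1) ^ k * k ^ k ≤ (k + 1) ^ k * n ^ k := by
        rw [← Nat.mul_pow, ← Nat.mul_pow]
        refine Nat.pow_le_pow_left ?_ k
        have : k ≤ n := by omega
        nlinarith
      have h3 := ih k (by omega)
      refine Nat.le_of_mul_le_mul_right ?_ (pow_pos hk0 k)
      calc (n + 1) ^ (k + 1) * k ^ k = (n + 1) * ((n + 1) ^ k * k ^ k) := by ring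
        _ ≤ (n + 1) * ((k + 1) ^ k * n ^ k) := Nat.mul_le_mul_left _ h2
        _ ≤ (n + 1) * ((k + 1) ^ k * (k ^ k * n.choose k)) :=
            Nat.mul_le_mul_left _ (Nat.mul_le_mul_left _ h3)
        _ = (k + 1) ^ k * k ^ k * ((n + 1) * n.choose k) := by ring
        _ = (k + 1) ^ (k + 1) * (n + 1).choose (k + 1) * k ^ k := by rw [h1]; ring

section Bound

variable {n k : ℕ} (hk : k ≤ n) (hsmall : ∀ q, q.Prime → q ∣ n.choose k → q ≤ k)

include hk hsmall in
theorem choose_le_pow_primes : n.choose k ≤ n ^ Nat.primeCounting k := by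
  rcases Nat.eq_zero_or_pos n with rfl | hn
  · simp [Nat.le_zero.1 hk]
  have hC : n.choose k ≠ 0 := (Nat.choose_pos hk).ne'
  have hfac := Nat.prod_factorization_pow_eq_self hC
  have hsub : (n.choose k).factorization.support ⊆ Nat.primesLE k := by
    intro q hq
    rw [Nat.support_factorization] at hq
    have hqp := Nat.prime_of_mem_primeFactors hq
    exact Nat.mem_primesLE.2 ⟨hsmall q hqp (Nat.dvd_of_mem_primeFactors hq), hqp⟩
  calc n.choose k = ∏ q ∈ (n.choose k).factorization.support, q ^ (n.choose k).factorization q := hfac.symm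
    _ ≤ ∏ q ∈ (n.choose k).factorization.support, n :=
        Finset.prod_le_prod' fun q _ => Nat.pow_factorization_choose_le hn
    _ = n ^ (n.choose k).factorization.support.card := Finset.prod_const n
    _ ≤ n ^ Nat.primeCounting k := by
        refine Nat.pow_le_pow_right hn ?_
        rw [← Nat.primesLE_card_eq_primeCounting]
        exact Finset.card_le_card hsub

include hk hsmall in
theorem pow_bound : n ^ k ≤ k ^ k * n ^ Nat.primeCounting k :=
  (pow_le_pow_mul_choose n k hk).trans (Nat.mul_le_mul_left _ (choose_le_pow_primes hk hsmall))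

include hk hsmall in
/-- The bound by primorials, when all prime factors are at most `M`. -/
theorem choose_le_primorial (hn : 0 < n) {M : ℕ} (hM : ∀ q, q.Prime → q ∣ n.choose k → q ≤ M) (c : ℕ) (hc : n < (c + 1) ^ 3) :
    n.choose k ≤ 4 ^ M * 4 ^ Nat.sqrt n * n ^ Nat.primeCounting c := by
  have hC : n.choose k ≠ 0 := (Nat.choose_pos hk).ne'
  have hfac := Nat.prod_factorization_pow_eq_self hC
  set S := (n.choose k).factorization.support with hS
  have hp : ∀ q ∈ S, q.Prime ∧ q ≤ M := by
    intro q hq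
    rw [hS, Nat.support_factorization] at hq
    exact ⟨Nat.prime_of_mem_primeFactors hq, hM q (Nat.prime_of_mem_primeFactors hq) (Nat.dvd_of_mem_primeFactors hq)⟩
  have key : ∀ q ∈ S, q ^ (n.choose k).factorization q ≤
      q * ((if q ≤ Nat.sqrt n then q else 1) * (if q ≤ c then n else 1)) := by
    intro q hq
    have hq1 := (hp q hq).1
    by_cases hqc : q ≤ c
    · have h1 : q ^ (n.choose k).factorization q ≤ n := Nat.pow_factorization_choose_le hn
      rw [if_pos hqc]
      refine h1.trans ?_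
      have : 1 ≤ (if q ≤ Nat.sqrt n then q else 1) := by split_ifs <;> [exact hq1.one_le; exact le_refl 1]
      calc n = 1 * (1 * n) := by ring
        _ ≤ q * ((if q ≤ Nat.sqrt n then q else 1) * n) :=
            Nat.mul_le_mul hq1.one_le (Nat.mul_le_mul_right n this)
    rw [if_neg hqc, mul_one]
    by_cases hqs : q ≤ Nat.sqrt n
    · rw [if_pos hqs]
      have h2 : (n.choose k).factorization q ≤ 2 := by
        refine Nat.factorization_choose_le_log.trans ?_
        refine Nat.lt_succ_iff.1 (Nat.log_lt_of_lt_pow hn.ne' ?_)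
        calc n < (c + 1) ^ 3 := hc
          _ ≤ q ^ 3 := Nat.pow_le_pow_left (by omega) 3
      calc q ^ (n.choose k).factorization q ≤ q ^ 2 := Nat.pow_le_pow_right hq1.pos h2
        _ = q * q := by ring
    · rw [if_neg hqs, mul_one]
      have h1 : (n.choose k).factorization q ≤ 1 :=
        Nat.factorization_choose_le_one (by
          have := Nat.lt_succ_sqrt n
          have h' : Nat.sqrt n + 1 ≤ q := by omega
          calc n < (Nat.sqrt n + 1) * (Nat.sqrt n + 1) := this
            _ ≤ q * q := Nat.mul_le_mul h' h'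
            _ = q ^ 2 := by ring)
      calc q ^ (n.choose k).factorization q ≤ q ^ 1 := Nat.pow_le_pow_right hq1.pos h1
        _ = q := pow_one q
  have hprim : ∀ (N : ℕ) (T : Finset ℕ), (∀ q ∈ T, q.Prime ∧ q ≤ N) → ∏ q ∈ T, q ≤ 4 ^ N := by
    intro N T hT
    refine le_trans ?_ (primorial_le_four_pow N)
    refine Finset.prod_le_prod_of_subset_of_one_le' (fun q hq => Finset.mem_filter.2
      ⟨Finset.mem_range.2 (Nat.lt_succ_of_le (hT q hq).2), (hT q hq).1⟩) fun q hq _ => (Finset.mem_filter.1 hq).2.one_le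
  calc n.choose k = ∏ q ∈ S, q ^ (n.choose k).factorization q := hfac.symm
    _ ≤ ∏ q ∈ S, q * ((if q ≤ Nat.sqrt n then q else 1) * (if q ≤ c then n else 1)) :=
        Finset.prod_le_prod' key
    _ = (∏ q ∈ S, q) * ((∏ q ∈ S.filter (· ≤ Nat.sqrt n), q) * n ^ (S.filter (· ≤ c)).card) := by
        rw [Finset.prod_mul_distrib, Finset.prod_mul_distrib, Finset.prod_filter, ← Finset.prod_const,
          Finset.prod_filter]
    _ ≤ 4 ^ M * (4 ^ Nat.sqrt n * n ^ Nat.primeCounting c) := by
        refine Nat.mul_le_mul (hprim M S hp) (Nat.mul_le_mul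
          (hprim _ _ fun q hq => ⟨(hp q (Finset.mem_filter.1 hq).1).1, (Finset.mem_filter.1 hq).2⟩) ?_)
        refine Nat.pow_le_pow_right hn ?_
        rw [← Nat.primesLE_card_eq_primeCounting]
        exact Finset.card_le_card fun q hq => Nat.mem_primesLE.2
          ⟨(Finset.mem_filter.1 hq).2, (hp q (Finset.mem_filter.1 hq).1).1⟩
    _ = _ := by ring

end Bound

theorem pi_small : ((List.range 150).all fun k => decide (k < 8) || decide (2 * Nat.primeCounting k ≤ k)) = true := by
  decide +kernel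

theorem pi_half (c : ℕ) : 2 * Nat.primeCounting c ≤ c + 1 := by
  induction c using Nat.strong_induction_on with
  | _ c ih =>
    by_cases hc : c < 4
    · interval_cases c <;> decide +kernel
    have h := ih (c - 2) (by omega)
    have h1 : Nat.primeCounting c ≤ Nat.primeCounting (c - 2) + 1 := by
      have h2 := Nat.primeCounting_add_le (a := 2) (k := c - 2) (by norm_num) (by omega) 2
      rw [Nat.sub_add_cancel (by omega)] at h2
      have e : Nat.totient 2 = 1 := by decide
      rw [e] at h2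
      -- at most one of two consecutive numbers above 2 is prime
      rw [← Nat.primesLE_card_eq_primeCounting, ← Nat.primesLE_card_eq_primeCounting]
      have hsub : Nat.primesLE c ⊆ insert (if c % 2 = 0 then c - 1 else c) (Nat.primesLE (c - 2)) := by
        intro q hq
        obtain ⟨hqc, hqp⟩ := Nat.mem_primesLE.1 hq
        by_cases hle : q ≤ c - 2
        · exact Finset.mem_insert_of_mem (Nat.mem_primesLE.2 ⟨hle, hqp⟩)
        · refine Finset.mem_insert.2 (Or.inl ?_)
          have hodd : q % 2 = 1 := by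
            rcases hqp.eq_two_or_odd with h | h
            · omega
            · exact h
          split_ifs <;> omega
      exact (Finset.card_le_card hsub).trans (Finset.card_insert_le _ _)
    omega

theorem pi_third {k : ℕ} (hk : 150 ≤ k) : 3 * Nat.primeCounting k ≤ k := by
  have h := Nat.primeCounting_add_le (a := 30) (k := 30) (by norm_num) le_rfl (k - 30)
  rw [Nat.add_sub_cancel' (by omega)] at h
  have e1 : Nat.totient 30 = 8 := by decide +kernel
  have e2 : Nat.primeCounting 30 = 10 := by decide +kernel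
  rw [e1, e2] at h
  omega

theorem pow_twentyseven_le (a : ℕ) : 27 ^ a ≤ (3 * a).choose a * 4 ^ a * (3 * a + 1) := by
  induction a with
  | zero => simp
  | succ a ih =>
    have e : (3 * (a + 1)).choose (a + 1) * ((a + 1) * ((2 * a + 2) * (2 * a + 1))) =
        (3 * a).choose a * ((3 * a + 3) * ((3 * a + 2) * (3 * a + 1))) := by
      have h1 := Nat.choose_mul_factorial_mul_factorial (show a + 1 ≤ 3 * (a + 1) by omega)
      have h2 := Nat.choose_mul_factorial_mul_factorial (show a ≤ 3 * a by omega)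
      rw [show 3 * (a + 1) - (a + 1) = 2 * a + 1 + 1 by omega, show 3 * (a + 1) = 3 * a + 1 + 1 + 1 by omega,
        Nat.factorial_succ a, Nat.factorial_succ (2 * a + 1), Nat.factorial_succ (2 * a),
        Nat.factorial_succ (3 * a + 1 + 1), Nat.factorial_succ (3 * a + 1), Nat.factorial_succ (3 * a)] at h1
      rw [show 3 * a - a = 2 * a by omega] at h2
      refine Nat.eq_of_mul_eq_mul_right (Nat.mul_pos a.factorial_pos (2 * a).factorial_pos) ?_
      rw [show 3 * (a + 1) = 3 * a + 1 + 1 + 1 by omega]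
      linear_combination h1 - ((3 * a + 3) * ((3 * a + 2) * (3 * a + 1))) * h2
    refine Nat.le_of_mul_le_mul_right ?_ (show 0 < (a + 1) * ((2 * a + 2) * (2 * a + 1)) by positivity)
    calc 27 ^ (a + 1) * ((a + 1) * ((2 * a + 2) * (2 * a + 1)))
        = 27 ^ a * (27 * ((a + 1) * ((2 * a + 2) * (2 * a + 1)))) := by ring
      _ ≤ (3 * a).choose a * 4 ^ a * (3 * a + 1) * (27 * ((a + 1) * ((2 * a + 2) * (2 * a + 1)))) :=
          Nat.mul_le_mul_right _ ih
      _ ≤ (3 * a).choose a * 4 ^ a * (3 * a + 1) * (4 * ((3 * a + 3) * ((3 * a + 2) * (3 * a + 4)))) := by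
          refine Nat.mul_le_mul_left _ ?_
          nlinarith [Nat.zero_le a]
      _ = (3 * a).choose a * ((3 * a + 3) * ((3 * a + 2) * (3 * a + 1))) * 4 ^ (a + 1) * (3 * (a + 1) + 1) := by ring
      _ = (3 * (a + 1)).choose (a + 1) * 4 ^ (a + 1) * (3 * (a + 1) + 1) * ((a + 1) * ((2 * a + 2) * (2 * a + 1))) := by
          rw [← e]; ring

theorem sq_le_two_pow : ∀ w : ℕ, 4 ≤ w → w ^ 2 ≤ 2 ^ w := by
  intro w hw
  induction w, hw using Nat.le_induction with
  | base => norm_num
  | succ w hw ih =>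
    calc (w + 1) ^ 2 ≤ 2 * w ^ 2 := by nlinarith
      _ ≤ 2 * 2 ^ w := Nat.mul_le_mul_left 2 ih
      _ = 2 ^ (w + 1) := by ring

/-- Extracting an exponent inequality. -/
theorem exp_bound {a s P n w : ℕ} (hn : n ≤ 2 ^ (3 * w)) (ha : 3 * a + 1 ≤ 2 ^ (3 * w + 2))
    (h : (3 * a).choose a ≤ 4 ^ a * 4 ^ s * n ^ P) : 3 * a ≤ 4 * (3 * w + 2 + 2 * s + 3 * w * P) := by
  have h1 : 27 ^ a ≤ 4 ^ a * 4 ^ s * n ^ P * 4 ^ a * (3 * a + 1) :=
    (pow_twentyseven_le a).trans (Nat.mul_le_mul_right _ (Nat.mul_le_mul_right _ h))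
  have h2 : 27 ^ a ≤ 2 ^ (4 * a + (3 * w + 2 + 2 * s + 3 * w * P)) := by
    refine h1.trans ?_
    calc 4 ^ a * 4 ^ s * n ^ P * 4 ^ a * (3 * a + 1)
        ≤ 4 ^ a * 4 ^ s * (2 ^ (3 * w)) ^ P * 4 ^ a * 2 ^ (3 * w + 2) := by gcongr
      _ = _ := by
          rw [show (4 : ℕ) = 2 ^ 2 from rfl, ← pow_mul, ← pow_mul, ← pow_mul, ← pow_add, ← pow_add, ← pow_add,
            ← pow_add]
          congr 1; ring
  have h3 : 2 ^ (19 * a) ≤ 2 ^ (4 * (4 * a + (3 * w + 2 + 2 * s + 3 * w * P))) := by
    calc 2 ^ (19 * a) = (2 ^ 19) ^ a := by rw [pow_mul]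
      _ ≤ (27 ^ 4) ^ a := Nat.pow_le_pow_left (by norm_num) a
      _ = (27 ^ a) ^ 4 := by rw [← pow_mul, ← pow_mul, mul_comm]
      _ ≤ (2 ^ (4 * a + (3 * w + 2 + 2 * s + 3 * w * P))) ^ 4 := Nat.pow_le_pow_left h2 4
      _ = _ := by rw [← pow_mul, mul_comm]
  have h4 := (Nat.pow_le_pow_iff_right (by norm_num : 1 < 2)).1 h3
  omega

/-- The large cases. -/
theorem large {n k : ℕ} (hk : 4096 ≤ k) (hn : 2 * k ≤ n) (hnk : n ^ 2 ≤ k ^ 3)
    (hsmall : ∀ q, q.Prime → q ∣ n.choose k → q ≤ k) : False := by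
  set u := Nat.sqrt (Nat.sqrt k) with hu
  have hu4 : u ^ 4 ≤ k := by
    calc u ^ 4 = (u ^ 2) ^ 2 := by ring
      _ ≤ (Nat.sqrt k) ^ 2 := Nat.pow_le_pow_left (Nat.sqrt_le' _) 2
      _ ≤ k := Nat.sqrt_le' k
  have hu4' : k < (u + 1) ^ 4 := by
    have h1 := Nat.lt_succ_sqrt' (Nat.sqrt k)
    have h2 := Nat.lt_succ_sqrt' k
    calc k < (Nat.sqrt k).succ ^ 2 := h2
      _ ≤ ((u + 1) ^ 2) ^ 2 := Nat.pow_le_pow_left h1 2
      _ = (u + 1) ^ 4 := by ring
  have hu8 : 8 ≤ u := by
    rw [hu, Nat.le_sqrt, Nat.le_sqrt]; omega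
  set w := u + 1 with hw
  have hnw : n < w ^ 6 := by
    by_contra hge
    have h1 : (w ^ 6) ^ 2 ≤ n ^ 2 := Nat.pow_le_pow_left (not_lt.1 hge) 2
    have h2 : k ^ 3 < (w ^ 4) ^ 3 := Nat.pow_lt_pow_left hu4' (by norm_num)
    rw [← pow_mul] at h1 h2
    norm_num only at h1 h2
    omega
  have hn2 : n ≤ 2 ^ (3 * w) := by
    refine hnw.le.trans ?_
    calc w ^ 6 = (w ^ 2) ^ 3 := by ring
      _ ≤ (2 ^ w) ^ 3 := Nat.pow_le_pow_left (sq_le_two_pow w (by omega)) 3
      _ = 2 ^ (3 * w) := by rw [← pow_mul, mul_comm]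
  set c := w ^ 2 - 1 with hc
  have hcw : c + 1 = w ^ 2 := by
    have : 0 < w ^ 2 := by positivity
    omega
  have hc3 : n < (c + 1) ^ 3 := by rw [hcw, ← pow_mul]; exact hnw
  set P := Nat.primeCounting c with hP
  have hP2 : 2 * P ≤ w ^ 2 := hcw ▸ pi_half c
  have hs : Nat.sqrt n < w ^ 3 := by rw [Nat.sqrt_lt, ← pow_add]; exact hnw
  have hwP : 2 * (3 * w * P) ≤ 3 * w ^ 3 := by
    calc 2 * (3 * w * P) = 3 * w * (2 * P) := by ring
      _ ≤ 3 * w * w ^ 2 := Nat.mul_le_mul_left _ hP2
      _ = 3 * w ^ 3 := by ring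
  by_cases h3 : 3 * k ≤ n
  · have hb : (3 * k).choose k ≤ 4 ^ k * 4 ^ Nat.sqrt n * n ^ P :=
      (Nat.choose_le_choose k h3).trans (choose_le_primorial (by omega) hsmall (by omega) hsmall c hc3)
    have ha : 3 * k + 1 ≤ 2 ^ (3 * w + 2) := by rw [pow_add]; norm_num; omega
    have := exp_bound hn2 ha hb
    have hlin : 3 * u ^ 4 ≤ 14 * w ^ 3 + 12 * w + 8 := by omega
    rw [hw] at hlin
    nlinarith [Nat.mul_le_mul_left (u ^ 3) hu8, Nat.mul_le_mul_left (u ^ 2) hu8, Nat.mul_le_mul_left u hu8]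
  · set a := n / 3 with ha
    have hb : (3 * a).choose a ≤ 4 ^ a * 4 ^ Nat.sqrt n * n ^ P := by
      have hmid : (n.choose a) ≤ n.choose k := by
        have hmono : ∀ j, a ≤ j → j ≤ k → n.choose a ≤ n.choose j := by
          intro j hj
          induction j, hj using Nat.le_induction with
          | base => exact fun _ => le_rfl
          | succ j hj ih => exact fun hjk => (ih (by omega)).trans (Nat.choose_le_succ_of_lt_half_left (by omega))
        exact hmono k (by omega) le_rfl
      refine ((Nat.choose_le_choose a (by omega)).trans hmid).trans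
        (choose_le_primorial (by omega) hsmall (by omega) (fun q hq hd => ?_) c hc3)
      by_contra hqa
      have hqk := hsmall q hq hd
      have h0 := Nat.factorization_choose_of_lt_three_mul (n := n) (k := k) (p := q) (by omega) hqk (by omega) (by omega)
      exact absurd h0 (hq.factorization_pos_of_dvd (Nat.choose_pos (by omega)).ne' hd).ne'
    have ha' : 3 * a + 1 ≤ 2 ^ (3 * w + 2) := by rw [pow_add]; norm_num; omega
    have := exp_bound hn2 ha' hb
    have hs2 : Nat.sqrt n < 2 * w ^ 2 := by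
      rw [Nat.sqrt_lt]
      calc n < 3 * w ^ 4 := by omega
        _ ≤ 2 * w ^ 2 * (2 * w ^ 2) := by nlinarith [Nat.zero_le (w ^ 4)]
    have hlin : 2 * u ^ 4 ≤ 6 * w ^ 3 + 16 * w ^ 2 + 12 * w + 11 := by omega
    rw [hw] at hlin
    nlinarith [Nat.mul_le_mul_left (u ^ 3) hu8, Nat.mul_le_mul_left (u ^ 2) hu8, Nat.mul_le_mul_left u hu8]

theorem sq_bound {n : ℕ} (k : ℕ) (hpb : n ^ k ≤ k ^ k * n ^ Nat.primeCounting k)
    (h2 : 2 * Nat.primeCounting k ≤ k) (hn : 0 < n) (hk : k ≠ 0) : n ≤ k * k := by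
  have h3 : (n ^ k) ^ 2 ≤ (k * k) ^ k * n ^ k := by
    calc (n ^ k) ^ 2 ≤ (k ^ k * n ^ Nat.primeCounting k) ^ 2 := Nat.pow_le_pow_left hpb 2
      _ = (k * k) ^ k * n ^ (2 * Nat.primeCounting k) := by
          rw [mul_pow, ← pow_mul, ← pow_mul, mul_comm (Nat.primeCounting k) 2, mul_pow, ← pow_add, mul_two]
      _ ≤ (k * k) ^ k * n ^ k := Nat.mul_le_mul_left _ (Nat.pow_le_pow_right hn h2)
  rw [sq] at h3
  exact (Nat.pow_le_pow_iff_left hk).1 (Nat.le_of_mul_le_mul_right h3 (pow_pos hn k))

/-- The theorem of Sylvester and Schur. -/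
theorem exists_prime_gt_dvd_choose {n k : ℕ} (hk : 1 ≤ k) (hn : 2 * k ≤ n) :
    ∃ q, q.Prime ∧ k < q ∧ q ∣ n.choose k := by
  by_contra hno
  push Not at hno
  have hsmall : ∀ q, q.Prime → q ∣ n.choose k → q ≤ k := fun q hq hd => not_lt.1 fun h => hno q hq h hd
  have hpb := pow_bound (by omega : k ≤ n) hsmall
  have h2 : 8 ≤ k → 2 * Nat.primeCounting k ≤ k := by
    intro h8
    by_cases h150 : k < 150
    · have h := pi_small
      simp only [List.all_eq_true, List.mem_range, Bool.or_eq_true, decide_eq_true_eq] at h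
      exact (h k h150).resolve_left (by omega)
    · have := pi_third (not_lt.1 h150); omega
  have hnpos : 0 < n := by omega
  by_cases h34 : k < 34
  · have hle : n ≤ max (k * k) 94 := by
      by_cases h8 : k < 8
      · refine le_trans ?_ (le_max_right _ _)
        interval_cases k
        · exfalso
          rw [Nat.choose_one_right] at hsmall
          have hq := Nat.minFac_prime (show n ≠ 1 by omega)
          have := hsmall _ hq (Nat.minFac_dvd n)
          have := hq.two_le
          omega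
        all_goals
          by_contra hgt
          have hn95 : 95 ≤ n := by omega
        · rw [show Nat.primeCounting 2 = 1 by decide +kernel] at hpb
          nlinarith
        · rw [show Nat.primeCounting 3 = 2 by decide +kernel] at hpb
          nlinarith [pow_pos hnpos 2, Nat.mul_le_mul_right (n ^ 2) (Nat.pow_le_pow_left hn95 2)]
        · rw [show Nat.primeCounting 4 = 2 by decide +kernel] at hpb
          nlinarith [pow_pos hnpos 2, Nat.mul_le_mul_right (n ^ 2) (Nat.pow_le_pow_left hn95 2)]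
        · rw [show Nat.primeCounting 5 = 3 by decide +kernel] at hpb
          nlinarith [pow_pos hnpos 3, Nat.mul_le_mul_right (n ^ 3) (Nat.pow_le_pow_left hn95 2)]
        · rw [show Nat.primeCounting 6 = 3 by decide +kernel] at hpb
          nlinarith [pow_pos hnpos 3, Nat.pow_le_pow_left hn95 3]
        · rw [show Nat.primeCounting 7 = 4 by decide +kernel] at hpb
          nlinarith [pow_pos hnpos 4, Nat.pow_le_pow_left hn95 3]
      · refine le_trans ?_ (le_max_left _ _)
        exact sq_bound k hpb (h2 (by omega)) hnpos (by omega)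
    obtain ⟨q, hq, hkq, hd⟩ := small hk h34 hn hle
    exact absurd (hsmall q hq hd) (by omega)
  have hsq : n ≤ k * k := sq_bound k hpb (h2 (by omega)) hnpos (by omega)
  have hcube : 150 ≤ k → n ^ 2 ≤ k ^ 3 := by
    intro h150
    by_contra hgt
    have h3 := pi_third h150
    have h4 : (n ^ k) ^ 3 ≤ k ^ (3 * k) * n ^ k := by
      calc (n ^ k) ^ 3 ≤ (k ^ k * n ^ Nat.primeCounting k) ^ 3 := Nat.pow_le_pow_left hpb 3
        _ = k ^ (3 * k) * n ^ (3 * Nat.primeCounting k) := by
            rw [mul_pow, ← pow_mul, ← pow_mul, mul_comm k 3, mul_comm (Nat.primeCounting k) 3]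
        _ ≤ k ^ (3 * k) * n ^ k := Nat.mul_le_mul_left _ (Nat.pow_le_pow_right hnpos h3)
    have h5 : (n ^ 2) ^ k ≤ (k ^ 3) ^ k := by
      refine Nat.le_of_mul_le_mul_right ?_ (pow_pos hnpos k)
      calc (n ^ 2) ^ k * n ^ k = (n ^ k) ^ 3 := by rw [← pow_mul, ← pow_mul, ← pow_add]; congr 1; ring
        _ ≤ k ^ (3 * k) * n ^ k := h4
        _ = (k ^ 3) ^ k * n ^ k := by rw [← pow_mul]
    exact hgt ((Nat.pow_le_pow_iff_left (by omega)).1 h5)
  by_cases hbig : 4096 ≤ k
  · exact large hbig hn (hcube (by omega)) hsmall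
  have h1 : k < 52 → n ≤ 2704 := fun h => hsq.trans ((Nat.mul_le_mul h.le h.le).trans (by norm_num))
  have h3 : k < 150 → n ≤ 22500 := fun h => hsq.trans ((Nat.mul_le_mul h.le h.le).trans (by norm_num))
  have h4 : n ≤ 262144 := by
    by_cases h150 : k < 150
    · have := h3 h150; omega
    · by_contra hgt
      have e := hcube (not_lt.1 h150)
      have e1 : 262145 ^ 2 ≤ n ^ 2 := Nat.pow_le_pow_left (by omega) 2
      have e2 : k ^ 3 ≤ 4096 ^ 3 := Nat.pow_le_pow_left (by omega) 3
      omega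
  obtain ⟨q, hq, hkq, hd⟩ := medium (by omega) hn h4 h1 h3
  exact absurd (hsmall q hq hd) (by omega)

end Cfsg.Agent.PermGroups.Sylvester
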